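import Cfsg.Agent.H902.Iso
import Cfsg.Agent.H200.STwo.FamDat

/-!
# Two groups of the same family over fields of the same order are isomorphic (helper200)

* `real_of_is` : `Fam.Is p f S fam` gives `OrdDiv.Real (nm (p ^ f) fam) S`;
* `iso_fam` : uniqueness.
-/

set_option autoImplicit false

namespace Cfsg.Agent.H200.PG

open Cfsg Cfsg.Agent.OrdDiv
open Cfsg.Agent.H200.STwo

universe u v

theorem real_of_is {p f : ℕ} {S : Type u} [Group S] {fam : H426.LieFam.Fam} (h : fam.Is p f S) :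
    OrdDiv.Real (nm (p ^ f) fam) S := by
  cases fam with
  | psl n =>
    obtain ⟨-, -, F, _, _, _, hF, e⟩ := h
    exact ⟨F, _, _, hF, e⟩
  | psp n =>
    obtain ⟨-, -, F, _, _, _, hF, e⟩ := h
    exact ⟨F, _, _, hF, e⟩
  | psu n =>
    obtain ⟨-, -, F, _, _, _, hF, e⟩ := h
    exact ⟨F, _, _, hF, e⟩
  | oodd n =>
    obtain ⟨-, -, F, _, _, _, hF, e⟩ := h
    exact ⟨F, _, _, hF, e⟩
  | oplus n =>
    obtain ⟨-, F, _, _, _, hF, e⟩ := h
    exact ⟨F, _, _, hF, e⟩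
  | ominus n =>
    obtain ⟨-, F, _, _, _, a, b, hF, hab, e⟩ := h
    exact ⟨F, _, _, a, b, hF, hab, e⟩
  | g2 =>
    obtain ⟨-, F, _, _, _, hF, e⟩ := h
    exact ⟨F, _, _, hF, e⟩
  | f4 =>
    obtain ⟨F, _, _, _, hF, e⟩ := h
    exact ⟨F, _, _, hF, e⟩
  | e6 =>
    obtain ⟨F, _, _, _, hF, e⟩ := h
    exact ⟨F, _, _, hF, e⟩
  | e7 =>
    obtain ⟨F, _, _, _, hF, e⟩ := h
    exact ⟨F, _, _, hF, e⟩
  | e8 =>
    obtain ⟨F, _, _, _, hF, e⟩ := h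
    exact ⟨F, _, _, hF, e⟩
  | te6 =>
    obtain ⟨F, _, _, _, hF, e⟩ := h
    exact ⟨F, _, _, hF, e⟩
  | td4 =>
    obtain ⟨F, _, _, _, hF, e⟩ := h
    exact ⟨F, _, _, hF, e⟩
  | sz =>
    obtain ⟨rfl, m, hm, rfl, F, _, _, hF, e⟩ := h
    exact ⟨F, _, _, m, hm, hF, rfl, e⟩
  | tf4 =>
    obtain ⟨rfl, m, hm, rfl, F, _, _, hF, e⟩ := h
    exact ⟨F, _, _, m, hm, hF, rfl, e⟩
  | ree =>
    obtain ⟨rfl, m, hm, rfl, F, _, _, hF, e⟩ := h
    exact ⟨F, _, _, m, hm, hF, rfl, e⟩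

/-- **same family, same field order: isomorphic** -/
theorem iso_fam {p f : ℕ} {S : Type u} [Group S] {T : Type v} [Group T] {fam : H426.LieFam.Fam} (h : fam.Is p f S)
    (h' : fam.Is p f T) : Nonempty (S ≃* T) :=
  H902.Iso.real_unique _ (real_of_is h) (real_of_is h')

end Cfsg.Agent.H200.PG
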